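import Cfsg.Agent.Classification.DihReduction
import Cfsg.Agent.H937.Common
import Cfsg.Agent.H688.TransAut

/-!
# S4933: nonabelian 2-subgroups of `PGL₂(q)` are dihedral (helper718)
-/

set_option autoImplicit false

open Subgroup

namespace Cfsg.Agent.H718.HT

open Matrix Cfsg.Agent.Schreier.ClassPSL
open Cfsg.Agent.ClassicalGeometry.AutPSL.Root Cfsg.Agent.ClassicalGeometry.AutPSL.Auto
open Cfsg.Agent.Classification.DihedralCentral Cfsg.Agent.Classification.DihReduction

theorem subDihedral_dihedral (n : ℕ) : SubDihedral (DihedralGroup n) := by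
  intro T _
  refine ⟨Subgroup.zpowers (DihedralGroup.r 1), inferInstance, ?_⟩
  have hR0 : ∀ i : ZMod n, DihedralGroup.r i ∈ Subgroup.zpowers (DihedralGroup.r (1 : ZMod n)) := by
    intro i
    obtain ⟨k, rfl⟩ := ZMod.intCast_surjective i
    exact ⟨k, DihedralGroup.r_one_zpow k⟩
  intro x _ hx
  rcases x with i | i
  · exact absurd (hR0 i) hx
  refine ⟨DihedralGroup.sr_mul_self i, ?_⟩
  intro y _ hy
  rcases y with j | j
  · exact absurd (hR0 j) hy
  rw [DihedralGroup.sr_mul_sr]
  exact hR0 _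

/-- a nonabelian finite 2-group which embeds in a dihedral group is dihedral of order at least 8 -/
theorem dihedral_of_injective {T : Type*} [Group T] [Finite T] (hT : IsPGroup 2 T) {n : ℕ} (f : T →* DihedralGroup n)
    (hf : Function.Injective f) (hna : ¬ IsMulCommutative T) :
    ∃ k, 3 ≤ k ∧ Nonempty (T ≃* DihedralGroup (2 ^ (k - 1))) := by
  have h1 := subDihedral_of_injective f hf (subDihedral_dihedral n)
  have h2 : IsPGroup 2 (⊤ : Subgroup T) := hT.to_subgroup _
  rcases isCyclic_or_dihedral h1 ⊤ h2 with h3 | ⟨m, hm, ⟨e⟩⟩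
  · exfalso
    apply hna
    have h4 : IsCyclic T := isCyclic_of_surjective (Subgroup.topEquiv : (⊤ : Subgroup T) ≃* T)
      (Subgroup.topEquiv : (⊤ : Subgroup T) ≃* T).surjective
    exact IsCyclic.isMulCommutative
  · have e' : T ≃* DihedralGroup m := (Subgroup.topEquiv : (⊤ : Subgroup T) ≃* T).symm.trans e
    obtain ⟨k, hk⟩ := IsPGroup.iff_card.1 hT
    have h5 : Nat.card (DihedralGroup m) = 2 * m := DihedralGroup.nat_card
    rw [← Nat.card_congr e'.toEquiv, hk] at h5
    have hk3 : 3 ≤ k := by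
      by_contra hlt
      have hk2 : k ≤ 2 := by omega
      apply hna
      have : Fact (Nat.Prime 2) := ⟨Nat.prime_two⟩
      have h6 : 2 ≤ k := by
        by_contra h7
        have h8 : 2 ^ k ≤ 2 ^ 1 := Nat.pow_le_pow_right (by norm_num) (by omega)
        omega
      have h9 : k = 2 := le_antisymm hk2 h6
      rw [h9] at hk
      exact ⟨⟨fun a b => (IsPGroup.isMulCommutative_of_card_eq_prime_sq (p := 2) hk).is_comm.comm a b⟩⟩
    refine ⟨k, hk3, ?_⟩
    have h6 : m = 2 ^ (k - 1) := by
      have h7 : 2 ^ k = 2 * 2 ^ (k - 1) := by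
        rw [← pow_succ']
        congr 1
        omega
      omega
    rw [← h6]
    exact ⟨e'⟩

/-- nonabelian 2-groups of inner-diagonal automorphisms of `PSL₂(F)` are dihedral of order at least 8 -/
theorem dihedral_inndiag {F : Type} [Field F] [Fintype F] (hodd : Odd (Fintype.card F))
    (T : Subgroup (MulAut (Matrix.ProjectiveSpecialLinearGroup (Fin 2) F))) (hT : IsPGroup 2 T)
    (hin : ∀ α ∈ T, ∃ A : GL (Fin 2) F, α = lift (cj A)) (hna : ¬ IsMulCommutative T) :
    ∃ k, 3 ≤ k ∧ Nonempty (T ≃* DihedralGroup (2 ^ (k - 1))) := by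
  classical
  have hfin : Finite (MulAut (Matrix.ProjectiveSpecialLinearGroup (Fin 2) F)) := inferInstance
  obtain ⟨p, hp⟩ := CharP.exists F
  have hpf : Fact p.Prime := ⟨CharP.char_is_prime F p⟩
  -- the hom `GL → Aut`
  let g : GL (Fin 2) F →* MulAut (Matrix.ProjectiveSpecialLinearGroup (Fin 2) F) := lift.comp cj
  let L : Subgroup (GL (Fin 2) F) := T.comap g
  let f1 : L →* MulAut (Matrix.ProjectiveSpecialLinearGroup (Fin 2) F) := g.comp L.subtype
  let f2 : L →* H937.PGL F := H937.pr.comp L.subtype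
  have hker : f1.ker = f2.ker := by
    ext x
    rw [MonoidHom.mem_ker, MonoidHom.mem_ker]
    constructor
    · intro h
      have h1 : lift (cj (x : GL (Fin 2) F)) = (1 : MulAut (Matrix.ProjectiveSpecialLinearGroup (Fin 2) F)) := h
      have h2 : lift (cj (x : GL (Fin 2) F) * fld (1 : F ≃+* F)) =
          (lift (fld (1 : F ≃+* F)) : MulAut (Matrix.ProjectiveSpecialLinearGroup (Fin 2) F)) := by
        rw [map_one, mul_one, h1, map_one]
      obtain ⟨⟨r, hr⟩, -⟩ := Cfsg.Agent.ClassicalGeometry.AutPSL.Main.injective_aux h2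
      show H937.pr (x : GL (Fin 2) F) = 1
      rw [Matrix.ProjGenLinGroup.mk_eq_one, Subgroup.mem_center_iff]
      intro y
      apply Units.ext
      change y.1 * ((x : GL (Fin 2) F) : Matrix (Fin 2) (Fin 2) F) = ((x : GL (Fin 2) F) : Matrix (Fin 2) (Fin 2) F) * y.1
      rw [← hr]
      exact (scalar_commute (n := Fin 2) r (Commute.all r) y.1).symm
    · intro h
      have h1 : H937.pr (x : GL (Fin 2) F) = 1 := h
      have h2 : Matrix.ProjGenLinGroup.mk (1 : GL (Fin 2) F) = Matrix.ProjGenLinGroup.mk (x : GL (Fin 2) F) := by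
        rw [map_one]; exact h1.symm
      obtain ⟨u, hu⟩ := Matrix.ProjGenLinGroup.mk_eq_mk_iff.1 h2
      show lift (cj (x : GL (Fin 2) F)) = 1
      rw [← hu, one_mul]
      have h3 : cj (Matrix.GeneralLinearGroup.scalar (Fin 2) u) = 1 :=
        Cfsg.Agent.ClassicalGeometry.AutPSL.Main.cj_eq_one_of_scalar (r := (u : F)) rfl
      rw [h3, map_one]
  have hr1 : f1.range = T := by
    apply le_antisymm
    · rintro _ ⟨x, rfl⟩
      exact x.2
    · intro α hα
      obtain ⟨A, hA⟩ := hin α hα
      exact ⟨⟨A, by show lift (cj A) ∈ T; rw [← hA]; exact hα⟩, hA.symm⟩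
  let e1 : T ≃* f2.range := (MulEquiv.subgroupCongr hr1.symm).trans
    (((QuotientGroup.quotientKerEquivRange f1).symm.trans (QuotientGroup.quotientMulEquivOfEq hker)).trans
      (QuotientGroup.quotientKerEquivRange f2))
  have hH : IsPGroup 2 f2.range := hT.of_equiv e1
  have hfinH : Finite f2.range := Finite.of_equiv _ e1.toEquiv
  have hne : Nontrivial f2.range := by
    by_contra h
    rw [not_nontrivial_iff_subsingleton] at h
    apply hna
    have : Subsingleton T := e1.toEquiv.subsingleton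
    exact ⟨⟨fun a b => Subsingleton.elim _ _⟩⟩
  have h2 : Fact (Nat.Prime 2) := ⟨Nat.prime_two⟩
  have hcen := hH.center_nontrivial
  have hcp : IsPGroup 2 (Subgroup.center f2.range) := hH.to_subgroup _
  obtain ⟨k, hk⟩ := IsPGroup.iff_card.1 hcp
  have hk0 : 2 ∣ Nat.card (Subgroup.center f2.range) := by
    rw [hk]
    refine dvd_pow_self 2 ?_
    rintro rfl
    have := Finite.one_lt_card_iff_nontrivial.2 hcen
    omega
  obtain ⟨c, hc⟩ := exists_prime_orderOf_dvd_card' 2 hk0
  have hc1 : ((c : f2.range) : H937.PGL F) ≠ 1 := by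
    intro h
    have h3 : c = 1 := Subtype.ext (Subtype.ext h)
    rw [h3, orderOf_one] at hc
    omega
  have hc2 : ((c : f2.range) : H937.PGL F) ^ 2 = 1 := by
    have h3 : c ^ 2 = 1 := orderOf_dvd_iff_pow_eq_one.1 (dvd_of_eq hc)
    have h4 := congrArg (fun z : Subgroup.center f2.range => ((z : f2.range) : H937.PGL F)) h3
    simpa using h4
  have hpodd : Odd p := by
    obtain ⟨n, _, hF⟩ := FiniteField.card F p
    rw [hF] at hodd
    exact Nat.Odd.of_mul_left (m := p) (n := p ^ ((n : ℕ) - 1)) (by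
      rw [← pow_succ', Nat.sub_add_cancel n.pos]; exact hodd)
  obtain ⟨N, hN, n, -, ⟨e⟩, -⟩ := H937.torus_case p (H := f2.range) (c := ((c : f2.range) : H937.PGL F))
    (by
      obtain ⟨j, hj⟩ := hpodd
      rw [hj, pow_succ, pow_mul, hc2, one_pow, one_mul]
      exact hc1)
    (by
      intro h hh
      have h5 := Subgroup.mem_center_iff.1 c.2 ⟨h, hh⟩
      have h6 : h * ((c : f2.range) : H937.PGL F) = ((c : f2.range) : H937.PGL F) * h :=
        congrArg Subtype.val h5
      rw [h6, mul_inv_cancel_right]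
      exact Subgroup.mem_zpowers _)
  refine dihedral_of_injective hT ((e.toMonoidHom.comp (Subgroup.inclusion hN)).comp e1.toMonoidHom) ?_ hna
  exact (e.injective.comp (Subgroup.inclusion_injective hN)).comp e1.injective

end Cfsg.Agent.H718.HT
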